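import Mathlib
import Cfsg.Agent.Lib.Helper22.Iso.Defs

/-!
# Project ISO (S3044 + S3045), package GEN: the generation lemma

`S ≤ H` a Sylow `p`-subgroup: `H` is generated by `N_H(S)` and the `p`-minimal subgroups
of `H` containing `S`.
-/

set_option autoImplicit false

namespace Cfsg.Agent.Lib.Helper43.Iso

open Cfsg.Agent.Lib.Helper22.Iso

universe u

section

variable {G : Type u} [Group G]

/-- the right hand side of the generation lemma -/
def genRhs (p : ℕ) [Fact p.Prime] (S : Sylow p G) (H : Subgroup G) : Subgroup G :=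
  (Subgroup.normalizer ((S : Subgroup G) : Set G) ⊓ H) ⊔
    ⨆ P' : {P' : Subgroup G // (S : Subgroup G) ≤ P' ∧ P' ≤ H ∧ Cfsg.IsPMinimal p ↥P'},
      (P' : Subgroup G)

theorem genRhs_mono {p : ℕ} [Fact p.Prime] (S : Sylow p G) {H₁ H₂ : Subgroup G} (h : H₁ ≤ H₂) :
    genRhs p S H₁ ≤ genRhs p S H₂ := by
  unfold genRhs
  apply sup_le_sup (inf_le_inf_left _ h)
  apply iSup_le
  rintro ⟨P', h1, h2, h3⟩
  exact le_iSup_of_le ⟨P', h1, h2.trans h, h3⟩ le_rfl

/-- a finite group whose Sylow `p`-subgroup `S` is not normal and lies in a unique maximal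
subgroup is `p`-minimal -/
theorem isPMinimal_of_unique [Finite G] {p : ℕ} [Fact p.Prime] (S : Sylow p G)
    (hn : ¬ (S : Subgroup G).Normal) (M : Subgroup G) (hM : IsCoatom M)
    (hSM : (S : Subgroup G) ≤ M)
    (huniq : ∀ M' : Subgroup G, IsCoatom M' → (S : Subgroup G) ≤ M' → M' = M) :
    Cfsg.IsPMinimal p G := by
  intro S''
  obtain ⟨g, hg⟩ := MulAction.exists_smul_eq G S S''
  have hS'' : (S'' : Subgroup G) = (S : Subgroup G).map (MulAut.conj g).toMonoidHom := by
    rw [← hg]
    ext x
    rw [Sylow.coe_subgroup_smul, Subgroup.mem_pointwise_smul_iff_inv_smul_mem, Subgroup.mem_map]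
    constructor
    · intro hx
      refine ⟨_, hx, ?_⟩
      simp only [MulAut.smul_def, MulEquiv.coe_toMonoidHom, MulAut.conj_apply,
        MulAut.conj_inv_apply]
      group
    · rintro ⟨y, hy, rfl⟩
      have e : (MulAut.conj g)⁻¹ • ((MulAut.conj g).toMonoidHom y) = y := by
        simp only [MulAut.smul_def, MulEquiv.coe_toMonoidHom, MulAut.conj_apply,
          MulAut.conj_inv_apply]
        group
      rw [e]
      exact hy
  have hmap : ∀ A B : Subgroup G, A.map (MulAut.conj g).toMonoidHom ≤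
      B.map (MulAut.conj g).toMonoidHom ↔ A ≤ B := fun A B =>
    (MulEquiv.mapSubgroup (MulAut.conj g)).le_iff_le
  refine ⟨?_, M.map (MulAut.conj g).toMonoidHom, ⟨?_, ?_⟩, ?_⟩
  · intro hN
    apply hn
    have h1 : S'' = S := by
      haveI : Unique (Sylow p G) := Sylow.unique_of_normal S'' hN
      exact Subsingleton.elim _ _
    rw [← h1]
    exact hN
  · exact (OrderIso.isCoatom_iff (MulEquiv.mapSubgroup (MulAut.conj g)) M).mpr hM
  · rw [hS'']
    exact (hmap _ _).mpr hSM
  · rintro M'' ⟨hM''c, hM''S⟩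
    obtain ⟨M', rfl⟩ : ∃ M' : Subgroup G, M'.map (MulAut.conj g).toMonoidHom = M'' :=
      ⟨(MulEquiv.mapSubgroup (MulAut.conj g)).symm M'',
        (MulEquiv.mapSubgroup (MulAut.conj g)).apply_symm_apply M''⟩
    have h1 : IsCoatom M' :=
      (OrderIso.isCoatom_iff (MulEquiv.mapSubgroup (MulAut.conj g)) M').mp hM''c
    rw [hS'', hmap] at hM''S
    rw [huniq M' h1 hM''S]

theorem gen_main [Finite G] {p : ℕ} [Fact p.Prime] (S : Sylow p G) :
    ∀ (k : ℕ) (H : Subgroup G), Nat.card H = k → (S : Subgroup G) ≤ H → H ≤ genRhs p S H := by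
  intro k
  induction k using Nat.strong_induction_on with
  | _ k ih =>
    intro H hk hSH
    by_cases hN : H ≤ Subgroup.normalizer ((S : Subgroup G) : Set G)
    · exact le_trans (le_inf hN le_rfl) le_sup_left
    · obtain ⟨S', hS'⟩ : ∃ S' : Sylow p ↥H, S' = S.subtype hSH := ⟨_, rfl⟩
      have hS'c : (S' : Subgroup ↥H) = (S : Subgroup G).subgroupOf H := by
        rw [hS']; exact Sylow.coe_subtype S hSH
      have hnn : ¬ (S' : Subgroup ↥H).Normal := by
        rw [hS'c, Subgroup.normal_subgroupOf_iff_le_normalizer hSH]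
        exact hN
      have hne : (S' : Subgroup ↥H) ≠ ⊤ := by
        intro h
        apply hnn
        rw [h]
        infer_instance
      obtain ⟨M, hM, hSM⟩ := (eq_top_or_exists_le_coatom (S' : Subgroup ↥H)).resolve_left hne
      by_cases hu : ∀ M' : Subgroup ↥H, IsCoatom M' → (S' : Subgroup ↥H) ≤ M' → M' = M
      · have hpm : Cfsg.IsPMinimal p ↥H := isPMinimal_of_unique S' hnn M hM hSM hu
        unfold genRhs
        exact le_trans (le_iSup_of_le ⟨H, hSH, le_rfl, hpm⟩ le_rfl) le_sup_right
      · push Not at hu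
        obtain ⟨M', hM', hSM', hne'⟩ := hu
        have key : ∀ M₀ : Subgroup ↥H, IsCoatom M₀ → (S' : Subgroup ↥H) ≤ M₀ →
            M₀.map H.subtype ≤ genRhs p S H := by
          intro M₀ hM₀ hSM₀
          have h1 : M₀.map H.subtype ≤ H := Subgroup.map_subtype_le M₀
          have h2 : (S : Subgroup G) ≤ M₀.map H.subtype := by
            have h := Subgroup.map_mono (f := H.subtype) hSM₀
            rw [hS'c, Subgroup.map_subgroupOf_eq_of_le hSH] at h
            exact h
          have h3 : Nat.card (M₀.map H.subtype) < k := by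
            rw [← hk, Subgroup.card_map_of_injective H.subtype_injective]
            by_contra hlt
            have hle : Nat.card M₀ ≤ Nat.card ↥H := Subgroup.card_le_card_group M₀
            exact hM₀.1 (Subgroup.eq_top_of_card_eq M₀ (by omega))
          exact (ih _ h3 _ rfl h2).trans (genRhs_mono S h1)
        have htop : M ⊔ M' = ⊤ := hM.sup_eq_top_of_ne hM' (Ne.symm hne')
        have hH : H = M.map H.subtype ⊔ M'.map H.subtype := by
          rw [← Subgroup.map_sup, htop, ← MonoidHom.range_eq_map, Subgroup.range_subtype]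
        exact hH.le.trans (sup_le (key M hM hSM) (key M' hM' hSM'))

/-- GEN -/
theorem pkgGen : PkgGen.{u} := by
  intro G _ _ p _ S H hSH
  exact gen_main S _ H rfl hSH

end

end Cfsg.Agent.Lib.Helper43.Iso
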