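import Mathlib
import Cfsg.Agent.Lib.Helper22.Iso.Defs
import Cfsg.Agent.Lib.Helper48.PMinimal

/-!
# Project ISO (S3044 + S3045), package RES: basic facts on `O^p(P)`
-/

set_option autoImplicit false

namespace Cfsg.Agent.Lib.Helper43.Iso

open Cfsg.Agent.Lib.Helper22.Iso Cfsg.Agent.Lib.Helper48

universe u

section

variable {G : Type u} [Group G]

theorem res_le (p : ℕ) (P : Subgroup G) : resid p P ≤ P := Subgroup.map_subtype_le _

theorem res_normalizer (p : ℕ) (P : Subgroup G) :
    P ≤ Subgroup.normalizer (resid p P : Set G) := by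
  rw [← Subgroup.normal_subgroupOf_iff_le_normalizer (res_le p P)]
  have e : (resid p P).subgroupOf P = Cfsg.pResidual p ↥P :=
    Subgroup.comap_map_eq_self_of_injective P.subtype_injective _
  rw [e]
  exact pResidual_normal' p ↥P

theorem res_sup [Finite G] {p : ℕ} [Fact p.Prime] (S : Sylow p G) (P : Subgroup G)
    (hSP : (S : Subgroup G) ≤ P) : P ≤ resid p P ⊔ (S : Subgroup G) := by
  have h1 := pResidual_sup_sylow (S.subtype hSP)
  rw [Sylow.coe_subtype] at h1
  have h2 := congrArg (Subgroup.map P.subtype) h1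
  rw [Subgroup.map_sup, Subgroup.map_subgroupOf_eq_of_le hSP, ← MonoidHom.range_eq_map,
    Subgroup.range_subtype] at h2
  exact h2.ge

theorem res_le_of_sup [Finite G] {p : ℕ} [Fact p.Prime] (S : Sylow p G) (P : Subgroup G)
    (W : Subgroup G) (hSW : (S : Subgroup G) ≤ Subgroup.normalizer (W : Set G))
    (hP : P ≤ W ⊔ (S : Subgroup G)) : resid p P ≤ W := by
  obtain ⟨K, hK⟩ : ∃ K : Subgroup G, K = W ⊔ (S : Subgroup G) := ⟨_, rfl⟩
  have hWK : W ≤ K := hK ▸ le_sup_left
  have hSK : (S : Subgroup G) ≤ K := hK ▸ le_sup_right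
  have hKn : K ≤ Subgroup.normalizer (W : Set G) := by
    rw [hK]
    exact sup_le Subgroup.le_normalizer hSW
  haveI hN : (W.subgroupOf K).Normal := (Subgroup.normal_subgroupOf_iff_le_normalizer hWK).mpr hKn
  have htop : W.subgroupOf K ⊔ ((S.subtype hSK : Sylow p ↥K) : Subgroup ↥K) = ⊤ := by
    rw [Sylow.coe_subtype, ← Subgroup.subgroupOf_sup hWK hSK, ← hK, Subgroup.subgroupOf_self]
  have hres := pResidual_le_of_sup_eq_top (S.subtype hSK) (W.subgroupOf K) htop
  rw [Subgroup.map_le_iff_le_comap, pResidual_le_iff]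
  intro g hg
  rw [Subgroup.mem_comap]
  have hgK : (g : G) ∈ K := by rw [hK]; exact hP g.2
  have hk : (⟨(g : G), hgK⟩ : ↥K) ∈ Cfsg.pResidual p ↥K := by
    apply mem_pResidual_of_coprime
    have e1 : orderOf (⟨(g : G), hgK⟩ : ↥K) = orderOf (g : G) := Subgroup.orderOf_mk _ _
    have e2 : orderOf (g : G) = orderOf g := Subgroup.orderOf_coe g
    rw [e1, e2]
    exact hg
  have := hres hk
  rw [Subgroup.mem_subgroupOf] at this
  exact this

theorem res_not_le [Finite G] {p : ℕ} [Fact p.Prime] (S : Sylow p G) (P : Subgroup G)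
    (hSP : (S : Subgroup G) ≤ P) (hmin : Cfsg.IsPMinimal p ↥P) :
    ¬ resid p P ≤ (S : Subgroup G) := by
  intro h
  have hPS : P ≤ (S : Subgroup G) := (res_sup S P hSP).trans (sup_le h le_rfl)
  apply (hmin (S.subtype hSP)).1
  rw [Sylow.coe_subtype, Subgroup.subgroupOf_eq_top.mpr hPS]
  infer_instance

/-- RES -/
theorem pkgRes : PkgRes.{u} := by
  intro G _ _ p _ S P hSP
  exact ⟨res_le p P, res_normalizer p P, res_sup S P hSP,
    fun W hSW hP => res_le_of_sup S P W hSW hP, fun hmin => res_not_le S P hSP hmin⟩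

end

end Cfsg.Agent.Lib.Helper43.Iso
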